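import Mathlib

set_option autoImplicit false

namespace Cfsg.Agent.Lib.Helper49.AO

/-- class two with derived group `⟨c⟩` of prime order `p` -/
structure Cl2 (G : Type*) [Group G] (p : ℕ) (c : G) : Prop where
  prime : p.Prime
  central : c ∈ Subgroup.center G
  order : orderOf c = p
  comm : ∀ a b : G, ∃ k : ℕ, a * b * a⁻¹ * b⁻¹ = c ^ k

end Cfsg.Agent.Lib.Helper49.AO
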