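import Mathlib
import Cfsg.Agent.Lib.Helper49.AO.Defs

set_option autoImplicit false

namespace Cfsg.Agent.Lib.Helper49.AO

theorem O1_conj_pow {G : Type*} [Group G] {x g z : G} (hz : z ∈ Subgroup.center G)
    (h : x * g * x⁻¹ = z * g) (j : ℕ) : x ^ j * g * (x ^ j)⁻¹ = z ^ j * g := by
  induction j with
  | zero => simp
  | succ j ih =>
    have hzj : z ^ j ∈ Subgroup.center G := Subgroup.pow_mem _ hz j
    calc x ^ (j + 1) * g * (x ^ (j + 1))⁻¹ = x * (x ^ j * g * (x ^ j)⁻¹) * x⁻¹ := by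
          rw [pow_succ' x j]; group
      _ = x * (z ^ j * g) * x⁻¹ := by rw [ih]
      _ = z ^ j * (x * g * x⁻¹) := by
          rw [← mul_assoc, (Subgroup.mem_center_iff.mp hzj x)]; group
      _ = z ^ (j + 1) * g := by rw [h, pow_succ]; group

theorem O1_orderOf {G : Type*} [Group G] {p : ℕ} {c : G} (h : Cl2 G p c) {n : ℕ}
    (hn : c ^ n ≠ 1) : orderOf (c ^ n) = p := by
  haveI := Fact.mk h.prime
  apply orderOf_eq_prime _ hn
  rw [← pow_mul, mul_comm, pow_mul, ← h.order, pow_orderOf_eq_one, one_pow]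

theorem O1_pow_mul_ne {G : Type*} [Group G] {p : ℕ} {c : G} (h : Cl2 G p c) {m n : ℕ}
    (hm : c ^ m ≠ 1) (hn : c ^ n ≠ 1) : c ^ (m * n) ≠ 1 := by
  intro hmn
  rw [← orderOf_dvd_iff_pow_eq_one, h.order, h.prime.dvd_mul] at hmn
  rcases hmn with h1 | h1
  · exact hm (by rw [← orderOf_dvd_iff_pow_eq_one, h.order]; exact h1)
  · exact hn (by rw [← orderOf_dvd_iff_pow_eq_one, h.order]; exact h1)

theorem O1_pow_central {G : Type*} [Group G] {p : ℕ} {c : G} (h : Cl2 G p c) (n : ℕ) :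
    c ^ n ∈ Subgroup.center G := Subgroup.pow_mem _ h.central n

/-- the commutator homomorphism `a ↦ [a, x]` -/
def O1_commHom {G : Type*} [Group G] {p : ℕ} {c : G} (h : Cl2 G p c) (x : G) : G →* G where
  toFun a := a * x * a⁻¹ * x⁻¹
  map_one' := by simp
  map_mul' a b := by
    obtain ⟨k, hk⟩ := h.comm b x
    have hc := Subgroup.mem_center_iff.mp (O1_pow_central h k)
    calc a * b * x * (a * b)⁻¹ * x⁻¹ = a * (b * x * b⁻¹ * x⁻¹) * x * a⁻¹ * x⁻¹ := by group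
      _ = a * c ^ k * x * a⁻¹ * x⁻¹ := by rw [hk]
      _ = c ^ k * a * x * a⁻¹ * x⁻¹ := by rw [hc a]
      _ = c ^ k * (a * x * a⁻¹ * x⁻¹) := by group
      _ = (a * x * a⁻¹ * x⁻¹) * c ^ k := by rw [hc]
      _ = a * x * a⁻¹ * x⁻¹ * (b * x * b⁻¹ * x⁻¹) := by rw [hk]

theorem O1_commHom_apply {G : Type*} [Group G] {p : ℕ} {c : G} (h : Cl2 G p c) (x a : G) :
    O1_commHom h x a = a * x * a⁻¹ * x⁻¹ := rfl

theorem O1_commHom_self {G : Type*} [Group G] {p : ℕ} {c : G} (h : Cl2 G p c) (x : G) :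
    O1_commHom h x x = 1 := by
  rw [O1_commHom_apply]; group

theorem O1_commHom_central {G : Type*} [Group G] {p : ℕ} {c : G} (h : Cl2 G p c) (x : G) {z : G}
    (hz : z ∈ Subgroup.center G) : O1_commHom h x z = 1 := by
  rw [O1_commHom_apply, ← Subgroup.mem_center_iff.mp hz x]; group

theorem O1_commHom_mem {G : Type*} [Group G] {p : ℕ} {c : G} (h : Cl2 G p c) (x a : G) :
    O1_commHom h x a ∈ Subgroup.center G := by
  obtain ⟨k, hk⟩ := h.comm a x
  rw [O1_commHom_apply, hk]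
  exact O1_pow_central h k

theorem O1_le_card {G : Type*} [Group G] {p : ℕ} (S : Set G) [Finite S] (s g : G)
    (hs : orderOf s = p) (hmem : ∀ j : ℕ, s ^ j * g ∈ S) : p ≤ Nat.card S := by
  have hinj : Function.Injective (fun j : Fin p => (⟨s ^ (j : ℕ) * g, hmem j⟩ : S)) := by
    intro j j' hjj
    have h1 : s ^ (j : ℕ) * g = s ^ (j' : ℕ) * g := congrArg Subtype.val hjj
    have h2 : s ^ (j : ℕ) = s ^ (j' : ℕ) := mul_right_cancel h1
    exact Fin.ext (pow_injOn_Iio_orderOf (by simp [hs]) (by simp [hs]) h2)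
  have := Nat.card_le_card_of_injective _ hinj
  simpa using this

theorem O1_sq_le_card {G Y : Type*} [Group G] [Group Y] {p : ℕ} (S : Set G) [Finite S]
    (s g : G) (u : ℕ → G) (t y₀ : Y) (ψ : G → Y) (hs : orderOf s = p) (ht : orderOf t = p)
    (hmem : ∀ i j : ℕ, s ^ j * g * u i ∈ S)
    (hψ : ∀ i j : ℕ, ψ (s ^ j * g * u i) = y₀ * t ^ i) : p ^ 2 ≤ Nat.card S := by
  have hinj : Function.Injective
      (fun q : Fin p × Fin p => (⟨s ^ (q.2 : ℕ) * g * u (q.1 : ℕ), hmem q.1 q.2⟩ : S)) := by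
    rintro ⟨i, j⟩ ⟨i', j'⟩ hjj
    have h1 : s ^ (j : ℕ) * g * u (i : ℕ) = s ^ (j' : ℕ) * g * u (i' : ℕ) :=
      congrArg Subtype.val hjj
    have h2 : y₀ * t ^ (i : ℕ) = y₀ * t ^ (i' : ℕ) := by rw [← hψ i j, ← hψ i' j', h1]
    have h3 : (i : ℕ) = i' :=
      pow_injOn_Iio_orderOf (by simp [ht]) (by simp [ht]) (mul_left_cancel h2)
    rw [h3] at h1
    have h4 : s ^ (j : ℕ) = s ^ (j' : ℕ) := mul_right_cancel (mul_right_cancel h1)
    have h5 : (j : ℕ) = j' := pow_injOn_Iio_orderOf (by simp [hs]) (by simp [hs]) h4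
    exact Prod.ext (Fin.ext h3) (Fin.ext h5)
  have := Nat.card_le_card_of_injective _ hinj
  simpa [sq] using this

theorem O1_exists_noncomm {G : Type*} [Group G] {p : ℕ} {c : G} (h : Cl2 G p c)
    {x g : G} (hx : x * g ≠ g * x) : ∃ n : ℕ, x * g * x⁻¹ * g⁻¹ = c ^ n ∧ c ^ n ≠ 1 := by
  obtain ⟨n, hn⟩ := h.comm x g
  refine ⟨n, hn, ?_⟩
  intro h1
  rw [h1] at hn
  apply hx
  calc x * g = (x * g * x⁻¹ * g⁻¹) * (g * x) := by group
    _ = g * x := by rw [hn, one_mul]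

theorem orbit_ge {G : Type*} [Group G] [Finite G] {p : ℕ} {c : G} (h : Cl2 G p c)
    {g : G} (hg : g ∉ Subgroup.center G) :
    p ≤ Nat.card ↥(MulAction.orbit (MulAut G) g) := by
  rw [Subgroup.mem_center_iff] at hg
  push Not at hg
  obtain ⟨x, hx⟩ := hg
  obtain ⟨n, hn, hn1⟩ := O1_exists_noncomm h hx
  have hxg : x * g * x⁻¹ = c ^ n * g := by rw [← hn]; group
  refine O1_le_card _ (c ^ n) g (O1_orderOf h hn1) ?_
  intro j
  rw [MulAction.mem_orbit_iff]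
  refine ⟨MulAut.conj (x ^ j), ?_⟩
  rw [MulAut.smul_def, MulAut.conj_apply]
  exact O1_conj_pow (O1_pow_central h n) hxg j

end Cfsg.Agent.Lib.Helper49.AO
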