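import Mathlib
import Cfsg.Agent.Lib.Helper49.AO.Defs
import Cfsg.Agent.Lib.Helper49.AO.O1

set_option autoImplicit false

namespace Cfsg.Agent.Lib.Helper49.AO

/-- a homomorphism `f` with `f a = w ^ k` whenever `[a, x] = c ^ k` -/
theorem CA_exists_hom {G : Type*} [Group G] {p : ℕ} {c : G} (h : Cl2 G p c)
    {w : G} (hwp : w ^ p = 1) (x : G) :
    ∃ f : G →* G, ∀ (a : G) (k : ℕ), a * x * a⁻¹ * x⁻¹ = c ^ k → f a = w ^ k := by
  have hmem : ∀ a : G, O1_commHom h x a ∈ Subgroup.zpowers c := by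
    intro a
    obtain ⟨k, hk⟩ := h.comm a x
    rw [O1_commHom_apply, hk]
    exact Subgroup.pow_mem _ (Subgroup.mem_zpowers c) k
  have hgen : ∀ u : Subgroup.zpowers c,
      u ∈ Subgroup.zpowers (⟨c, Subgroup.mem_zpowers c⟩ : Subgroup.zpowers c) := by
    rintro ⟨_, k, rfl⟩
    exact ⟨k, by ext; simp⟩
  have hord : orderOf w ∣ orderOf (⟨c, Subgroup.mem_zpowers c⟩ : Subgroup.zpowers c) := by
    rw [Subgroup.orderOf_mk, h.order]
    exact orderOf_dvd_of_pow_eq_one hwp
  refine ⟨(monoidHomOfForallMemZpowers hgen hord).comp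
    ((O1_commHom h x).codRestrict (Subgroup.zpowers c) hmem), ?_⟩
  intro a k hk
  have h1 : ((O1_commHom h x).codRestrict (Subgroup.zpowers c) hmem) a
      = (⟨c, Subgroup.mem_zpowers c⟩ : Subgroup.zpowers c) ^ k := by
    ext
    simp [O1_commHom_apply, hk]
  rw [MonoidHom.comp_apply, h1, map_pow, monoidHomOfForallMemZpowers_apply_gen]

theorem CA_exists_aut {G : Type*} [Group G] [Finite G] {p : ℕ} {c : G} (h : Cl2 G p c)
    {w : G} (hw : w ∈ Subgroup.center G) (hwp : w ^ p = 1) (x : G) :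
    ∃ β : MulAut G, ∀ (a : G) (k : ℕ), a * x * a⁻¹ * x⁻¹ = c ^ k → β a = a * w ^ k := by
  obtain ⟨f, hf⟩ := CA_exists_hom h hwp x
  have hfc : ∀ a, f a ∈ Subgroup.center G := by
    intro a
    obtain ⟨k, hk⟩ := h.comm a x
    rw [hf a k hk]
    exact Subgroup.pow_mem _ hw k
  have hfz : ∀ z ∈ Subgroup.center G, f z = 1 := by
    intro z hz
    have := hf z 0 (by
      rw [pow_zero, ← O1_commHom_apply h x z]
      exact O1_commHom_central h x hz)
    simpa using this
  let β₀ : G →* G :=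
    { toFun := fun a => a * f a
      map_one' := by simp
      map_mul' := by
        intro a b
        have hc := Subgroup.mem_center_iff.mp (hfc a)
        rw [map_mul]
        calc a * b * (f a * f b) = a * (b * f a) * f b := by group
          _ = a * (f a * b) * f b := by rw [hc]
          _ = a * f a * (b * f b) := by group }
  have hinj : Function.Injective β₀ := by
    rw [injective_iff_map_eq_one]
    intro a ha
    have ha' : a * f a = 1 := ha
    have h1 : a = (f a)⁻¹ := eq_inv_of_mul_eq_one_left ha'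
    have h2 : a ∈ Subgroup.center G := by
      rw [h1]; exact Subgroup.inv_mem _ (hfc a)
    rw [hfz a h2, mul_one] at ha'
    exact ha'
  refine ⟨MulEquiv.ofBijective β₀ (Finite.injective_iff_bijective.mp hinj), ?_⟩
  intro a k hk
  change a * f a = a * w ^ k
  rw [hf a k hk]

theorem CA_iter {G : Type*} [Group G] {p : ℕ} {c : G} (h : Cl2 G p c)
    {w : G} (hw : w ∈ Subgroup.center G) {x : G} (β : MulAut G)
    (hβ : ∀ (a : G) (k : ℕ), a * x * a⁻¹ * x⁻¹ = c ^ k → β a = a * w ^ k)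
    {g : G} {n : ℕ} (hn : g * x * g⁻¹ * x⁻¹ = c ^ n) (i : ℕ) :
    (β ^ i) g = g * (w ^ n) ^ i := by
  induction i with
  | zero => simp
  | succ i ih =>
    have h1 : (g * (w ^ n) ^ i) * x * (g * (w ^ n) ^ i)⁻¹ * x⁻¹ = c ^ n := by
      rw [← O1_commHom_apply h x, map_mul, map_pow, map_pow, O1_commHom_central h x hw,
        O1_commHom_apply, hn]
      simp
    rw [pow_succ', MulAut.mul_apply, ih, hβ _ n h1, pow_succ, mul_assoc]

theorem orbit_ge_sq_A {G : Type*} [Group G] [Finite G] {p : ℕ} {c : G} (h : Cl2 G p c)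
    {w : G} (hw : w ∈ Subgroup.center G) (hwp : w ^ p = 1) (hwc : w ∉ Subgroup.zpowers c)
    {g : G} (hg : g ∉ Subgroup.center G) :
    p ^ 2 ≤ Nat.card ↥(MulAction.orbit (MulAut G) g) := by
  haveI := Fact.mk h.prime
  rw [Subgroup.mem_center_iff] at hg
  push Not at hg
  obtain ⟨x, hx⟩ := hg
  obtain ⟨m, hm, hm1⟩ := O1_exists_noncomm h hx
  obtain ⟨n, hn, hn1⟩ := O1_exists_noncomm h (Ne.symm hx)
  obtain ⟨β, hβ⟩ := CA_exists_aut h hw hwp x
  have hit := CA_iter h hw β hβ hn
  have hxg : x * g * x⁻¹ = c ^ m * g := by rw [← hm]; group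
  haveI hN : (Subgroup.zpowers c).Normal := by
    constructor
    intro a ha b
    have hac : a ∈ Subgroup.center G := (Subgroup.zpowers_le.mpr h.central) ha
    rw [Subgroup.mem_center_iff.mp hac b]
    simpa using ha
  have hw1 : w ≠ 1 := by
    rintro rfl
    exact hwc (Subgroup.one_mem _)
  have hwo : orderOf w = p := orderOf_eq_prime hwp hw1
  have hpn : ¬ p ∣ n := by
    intro hd
    apply hn1
    rw [← orderOf_dvd_iff_pow_eq_one, h.order]
    exact hd
  have hcop : Nat.Coprime n (orderOf w) := by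
    rw [hwo]
    exact ((Nat.Prime.coprime_iff_not_dvd h.prime).mpr hpn).symm
  have hv : w ^ n ∉ Subgroup.zpowers c := by
    intro hmem
    obtain ⟨e, he⟩ := exists_pow_eq_self_of_coprime hcop
    apply hwc
    rw [← he]
    exact Subgroup.pow_mem _ hmem e
  have hto : orderOf (QuotientGroup.mk' (Subgroup.zpowers c) (w ^ n)) = p := by
    apply orderOf_eq_prime
    · rw [← map_pow, ← pow_mul, mul_comm, pow_mul, hwp, one_pow, map_one]
    · intro h1
      exact hv ((QuotientGroup.eq_one_iff _).mp h1)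
  refine O1_sq_le_card _ (c ^ m) g (fun i => (w ^ n) ^ i)
    (QuotientGroup.mk' (Subgroup.zpowers c) (w ^ n)) (QuotientGroup.mk' (Subgroup.zpowers c) g)
    (QuotientGroup.mk' (Subgroup.zpowers c)) (O1_orderOf h hm1) hto ?_ ?_
  · intro i j
    rw [MulAction.mem_orbit_iff]
    refine ⟨MulAut.conj (x ^ j) * β ^ i, ?_⟩
    rw [MulAut.smul_def, MulAut.mul_apply, hit, MulAut.conj_apply]
    have hc := Subgroup.mem_center_iff.mp
      (Subgroup.pow_mem _ (Subgroup.pow_mem _ hw n) i : (w ^ n) ^ i ∈ Subgroup.center G)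
    calc x ^ j * (g * (w ^ n) ^ i) * (x ^ j)⁻¹
        = x ^ j * g * ((w ^ n) ^ i * (x ^ j)⁻¹) := by group
      _ = x ^ j * g * ((x ^ j)⁻¹ * (w ^ n) ^ i) := by rw [hc]
      _ = (x ^ j * g * (x ^ j)⁻¹) * (w ^ n) ^ i := by group
      _ = (c ^ m) ^ j * g * (w ^ n) ^ i := by
          rw [O1_conj_pow (O1_pow_central h m) hxg j]
  · intro i j
    have hc1 : QuotientGroup.mk' (Subgroup.zpowers c) c = 1 :=
      (QuotientGroup.eq_one_iff _).mpr (Subgroup.mem_zpowers c)
    simp only [map_mul, map_pow, hc1, one_pow, one_mul]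

end Cfsg.Agent.Lib.Helper49.AO
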