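import Mathlib
import Cfsg.Agent.Lib.Helper49.AO.Defs
import Cfsg.Agent.Lib.Helper49.AO.O1

set_option autoImplicit false

namespace Cfsg.Agent.Lib.Helper49.AO

theorem O2_iter {G : Type*} [Group G] {p : ℕ} {c : G} (h : Cl2 G p c)
    {y : G} (τ : MulAut G)
    (hτ : ∀ (g : G) (n : ℕ), g * y * g⁻¹ * y⁻¹ = c ^ n → ∃ k : ℕ, τ g = g * y ^ n * c ^ k)
    {g : G} {n : ℕ} (hn : g * y * g⁻¹ * y⁻¹ = c ^ n) (i : ℕ) :
    ∃ k : ℕ, (τ ^ i) g = g * (y ^ (i * n) * c ^ k) := by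
  induction i with
  | zero => exact ⟨0, by simp⟩
  | succ i ih =>
    obtain ⟨k, hk⟩ := ih
    have h1 : (g * (y ^ (i * n) * c ^ k)) * y * (g * (y ^ (i * n) * c ^ k))⁻¹ * y⁻¹ = c ^ n := by
      rw [← O1_commHom_apply h y, map_mul, map_mul, map_pow, map_pow, O1_commHom_self,
        O1_commHom_central h y h.central, O1_commHom_apply, hn]
      simp
    obtain ⟨k', hk'⟩ := hτ _ n h1
    refine ⟨k + k', ?_⟩
    have hc := Subgroup.mem_center_iff.mp (O1_pow_central h k)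
    rw [pow_succ', MulAut.mul_apply, hk, hk']
    calc g * (y ^ (i * n) * c ^ k) * y ^ n * c ^ k'
        = g * (y ^ (i * n) * (c ^ k * y ^ n)) * c ^ k' := by group
      _ = g * (y ^ (i * n) * (y ^ n * c ^ k)) * c ^ k' := by rw [hc]
      _ = g * (y ^ ((i + 1) * n) * c ^ (k + k')) := by
          rw [add_mul, one_mul, pow_add, pow_add]; group

theorem orbit_ge_sq {G : Type*} [Group G] [Finite G] {p : ℕ} {c : G} (h : Cl2 G p c)
    {y : G} (τ : MulAut G)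
    (hτ : ∀ (g : G) (n : ℕ), g * y * g⁻¹ * y⁻¹ = c ^ n → ∃ k : ℕ, τ g = g * y ^ n * c ^ k)
    {g : G} (hg : g * y ≠ y * g) :
    p ^ 2 ≤ Nat.card ↥(MulAction.orbit (MulAut G) g) := by
  obtain ⟨n, hn, hn1⟩ := O1_exists_noncomm h hg
  obtain ⟨m, hm, hm1⟩ := O1_exists_noncomm h (Ne.symm hg)
  have hit := O2_iter h τ hτ hn
  choose k hk using hit
  have hyg : y * g * y⁻¹ = c ^ m * g := by rw [← hm]; group
  refine O1_sq_le_card _ (c ^ m) g (fun i => y ^ (i * n) * c ^ k i) (c ^ (m * n)) 1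
    (O1_commHom h g) (O1_orderOf h hm1) (O1_orderOf h (O1_pow_mul_ne h hm1 hn1)) ?_ ?_
  · intro i j
    rw [MulAction.mem_orbit_iff]
    refine ⟨MulAut.conj (y ^ j) * τ ^ i, ?_⟩
    rw [MulAut.smul_def, MulAut.mul_apply, hk, MulAut.conj_apply]
    have hc := Subgroup.mem_center_iff.mp (O1_pow_central h (k i))
    have hcomm : y ^ (i * n) * (y ^ j)⁻¹ = (y ^ j)⁻¹ * y ^ (i * n) :=
      ((Commute.pow_pow_self y (i * n) j).inv_right).eq
    calc y ^ j * (g * (y ^ (i * n) * c ^ k i)) * (y ^ j)⁻¹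
        = y ^ j * g * (y ^ (i * n) * (c ^ k i * (y ^ j)⁻¹)) := by group
      _ = y ^ j * g * (y ^ (i * n) * ((y ^ j)⁻¹ * c ^ k i)) := by rw [hc]
      _ = y ^ j * g * ((y ^ (i * n) * (y ^ j)⁻¹) * c ^ k i) := by group
      _ = y ^ j * g * (((y ^ j)⁻¹ * y ^ (i * n)) * c ^ k i) := by rw [hcomm]
      _ = (y ^ j * g * (y ^ j)⁻¹) * (y ^ (i * n) * c ^ k i) := by group
      _ = (c ^ m) ^ j * g * (y ^ (i * n) * c ^ k i) := by
          rw [O1_conj_pow (O1_pow_central h m) hyg j]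
  · intro i j
    simp only [map_mul, map_pow, O1_commHom_self, O1_commHom_central h g h.central]
    rw [O1_commHom_apply, hm]
    simp only [one_pow, one_mul, mul_one]
    rw [← pow_mul, ← pow_mul]
    congr 1
    ring

end Cfsg.Agent.Lib.Helper49.AO
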