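import Mathlib
import Cfsg.Agent.Lib.Helper49.AO.Defs

set_option autoImplicit false

namespace Cfsg.Agent.Lib.Helper49.AO

/-- pairs `(γ, x)` with `γ • x = x`, counted in the two ways -/
def S3_equiv (Γ X : Type*) [Group Γ] [MulAction Γ X] :
    (Σ a : Γ, MulAction.fixedBy X a) ≃ (Σ x : X, MulAction.stabilizer Γ x) where
  toFun s := ⟨s.2.1, ⟨s.1, s.2.2⟩⟩
  invFun s := ⟨s.2.1, ⟨s.1, s.2.2⟩⟩
  left_inv := fun _ => rfl
  right_inv := fun _ => rfl

theorem S3_sum_stab (Γ X : Type*) [Group Γ] [Finite Γ] [MulAction Γ X] [Fintype X] :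
    ∑ x : X, Nat.card (MulAction.stabilizer Γ x)
      = Nat.card (MulAction.orbitRel.Quotient Γ X) * Nat.card Γ := by
  rw [← Nat.card_sigma, ← Nat.card_congr (S3_equiv Γ X),
    Nat.card_congr (MulAction.sigmaFixedByEquivOrbitsProdGroup Γ X), Nat.card_prod]

theorem S3_ncard {X : Type*} [Fintype X] (S : Set X) [DecidablePred (· ∈ S)] (c : ℕ) :
    ∑ x : X, (if x ∈ S then c else 0) = c * S.ncard := by
  have e1 : S.ncard = (Finset.univ.filter (· ∈ S)).card := by
    rw [← Nat.card_coe_set_eq, Nat.card_eq_fintype_card]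
    exact Fintype.card_of_subtype _ (by simp)
  rw [e1, ← Finset.sum_filter, Finset.sum_const, smul_eq_mul, mul_comm]

theorem count_orbits {Γ X : Type*} [Group Γ] [Finite Γ] [MulAction Γ X] [Finite X] (p : ℕ)
    (X₀ X₁ X₂ : Set X) (hcov : ∀ x, x ∈ X₀ ∨ x ∈ X₁ ∨ x ∈ X₂)
    (h1 : ∀ x ∈ X₁, p ≤ Nat.card ↥(MulAction.orbit Γ x))
    (h2 : ∀ x ∈ X₂, p ^ 2 ≤ Nat.card ↥(MulAction.orbit Γ x)) :
    p ^ 2 * Nat.card (MulAction.orbitRel.Quotient Γ X) ≤
      p ^ 2 * X₀.ncard + p * X₁.ncard + X₂.ncard := by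
  classical
  have := Fintype.ofFinite X
  set N := Nat.card Γ with hN
  have hN0 : 0 < N := Nat.card_pos
  have horb : ∀ x : X, Nat.card (MulAction.orbit Γ x) * Nat.card (MulAction.stabilizer Γ x) = N := by
    intro x
    have := Fintype.ofFinite Γ
    have := Fintype.ofFinite (MulAction.orbit Γ x)
    have := Fintype.ofFinite (MulAction.stabilizer Γ x)
    rw [hN, Nat.card_eq_fintype_card, Nat.card_eq_fintype_card, Nat.card_eq_fintype_card]
    exact MulAction.card_orbit_mul_card_stabilizer_eq_card_group Γ x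
  have hpt : ∀ x : X, p ^ 2 * Nat.card (MulAction.stabilizer Γ x) ≤
      (if x ∈ X₀ then p ^ 2 * N else 0) + (if x ∈ X₁ then p * N else 0)
        + (if x ∈ X₂ then N else 0) := by
    intro x
    rcases hcov x with h | h | h
    · have : p ^ 2 * Nat.card (MulAction.stabilizer Γ x) ≤ p ^ 2 * N :=
        Nat.mul_le_mul_left _ (Subgroup.card_le_card_group _)
      rw [if_pos h]
      omega
    · have : p ^ 2 * Nat.card (MulAction.stabilizer Γ x) ≤ p * N := by
        rw [← horb x, pow_two, mul_assoc]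
        exact Nat.mul_le_mul_left _ (Nat.mul_le_mul_right _ (h1 x h))
      rw [if_pos h]
      omega
    · have : p ^ 2 * Nat.card (MulAction.stabilizer Γ x) ≤ N := by
        rw [← horb x]
        exact Nat.mul_le_mul_right _ (h2 x h)
      rw [if_pos h]
      omega
  have hsum := Finset.sum_le_sum (fun x (_ : x ∈ Finset.univ) => hpt x)
  rw [← Finset.mul_sum, S3_sum_stab, Finset.sum_add_distrib, Finset.sum_add_distrib, S3_ncard,
    S3_ncard, S3_ncard] at hsum
  have h3 : N * (p ^ 2 * Nat.card (MulAction.orbitRel.Quotient Γ X)) ≤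
      N * (p ^ 2 * X₀.ncard + p * X₁.ncard + X₂.ncard) := by
    calc N * (p ^ 2 * Nat.card (MulAction.orbitRel.Quotient Γ X))
        = p ^ 2 * (Nat.card (MulAction.orbitRel.Quotient Γ X) * N) := by ring
      _ ≤ p ^ 2 * N * X₀.ncard + p * N * X₁.ncard + N * X₂.ncard := hsum
      _ = N * (p ^ 2 * X₀.ncard + p * X₁.ncard + X₂.ncard) := by ring
  exact Nat.le_of_mul_le_mul_left h3 hN0

end Cfsg.Agent.Lib.Helper49.AO
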