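import Mathlib
import Cfsg.Agent.Lib.Helper49.AO.Defs

set_option autoImplicit false

namespace Cfsg.Agent.Lib.Helper49.AO

/-- `g ↦ [g, x]` as a homomorphism -/
def S5_hom {G : Type*} [Group G] {p : ℕ} {c : G} (h : Cl2 G p c) (x : G) : G →* G where
  toFun g := g * x * g⁻¹ * x⁻¹
  map_one' := by simp
  map_mul' a b := by
    obtain ⟨k, hk⟩ := h.comm b x
    have hc : ∀ g : G, g * c ^ k = c ^ k * g := fun g =>
      Subgroup.mem_center_iff.1 (Subgroup.pow_mem _ h.central k) g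
    have e : a * b * x * (a * b)⁻¹ * x⁻¹ = a * (b * x * b⁻¹ * x⁻¹) * x * a⁻¹ * x⁻¹ := by group
    rw [e, hk, hc a]
    have e2 : a * x * a⁻¹ * x⁻¹ * c ^ k = c ^ k * (a * x * a⁻¹ * x⁻¹) := hc _
    rw [e2]; group

theorem S5_aux {G : Type*} [Group G] [Finite G] {p : ℕ} {c : G} (h : Cl2 G p c) (K : Subgroup G)
    (x : G) (hK : ∃ g ∈ K, g * x ≠ x * g) :
    Nat.card ↥K = p * Nat.card ↥(K ⊓ Subgroup.centralizer ({x} : Set G)) := by
  have hp : Fact p.Prime := ⟨h.prime⟩
  let ψ : ↥K →* G := (S5_hom h x).comp K.subtype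
  have hψ : ∀ g : ↥K, ψ g = (g : G) * x * (g : G)⁻¹ * x⁻¹ := fun g => rfl
  have hker : ψ.ker = (Subgroup.centralizer ({x} : Set G)).subgroupOf K := by
    ext g
    rw [MonoidHom.mem_ker, hψ, Subgroup.mem_subgroupOf, Subgroup.mem_centralizer_iff]
    constructor
    · rintro hg _ rfl
      rw [mul_inv_eq_one, mul_inv_eq_iff_eq_mul] at hg
      exact hg.symm
    · intro hg
      have := hg x rfl
      rw [mul_inv_eq_one, mul_inv_eq_iff_eq_mul]
      exact this.symm
  have hrange : ψ.range ≤ Subgroup.zpowers c := by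
    rintro _ ⟨g, rfl⟩
    obtain ⟨k, hk⟩ := h.comm g x
    rw [hψ, hk]
    exact Subgroup.pow_mem _ (Subgroup.mem_zpowers c) k
  have hcz : Nat.card (Subgroup.zpowers c) = p := by rw [Nat.card_zpowers, h.order]
  have hcr : Nat.card ψ.range = p := by
    have hd : Nat.card ψ.range ∣ p := hcz ▸ Subgroup.card_dvd_of_le hrange
    rcases (Nat.dvd_prime h.prime).1 hd with h1 | h1
    · exfalso
      obtain ⟨g, hg, hgx⟩ := hK
      have hb : ψ.range = ⊥ := Subgroup.card_eq_one.1 h1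
      have : ψ ⟨g, hg⟩ ∈ ψ.range := ⟨_, rfl⟩
      rw [hb, Subgroup.mem_bot, hψ, mul_inv_eq_one, mul_inv_eq_iff_eq_mul] at this
      exact hgx this
    · exact h1
  have h1 := Subgroup.card_mul_index ψ.ker
  rw [Subgroup.index_ker, hcr, hker, ← Subgroup.inf_subgroupOf_left,
    Nat.card_congr (Subgroup.subgroupOfEquivOfLe (inf_le_left :
      K ⊓ Subgroup.centralizer ({x} : Set G) ≤ K)).toEquiv] at h1
  rw [← h1, mul_comm]

theorem card_centralizer {G : Type*} [Group G] [Finite G] {p : ℕ} {c : G} (h : Cl2 G p c)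
    {y : G} (hy : y ∉ Subgroup.center G) :
    Nat.card G = p * Nat.card ↥(Subgroup.centralizer ({y} : Set G)) := by
  have hK : ∃ g ∈ (⊤ : Subgroup G), g * y ≠ y * g := by
    by_contra hcon
    push Not at hcon
    exact hy (Subgroup.mem_center_iff.2 (fun g => hcon g (Subgroup.mem_top g)))
  have := S5_aux h ⊤ y hK
  rwa [top_inf_eq, Subgroup.card_top] at this

theorem card_centralizer_inf {G : Type*} [Group G] [Finite G] {p : ℕ} {c : G} (h : Cl2 G p c)
    {x y : G} (hxy : x * y ≠ y * x) :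
    Nat.card ↥(Subgroup.centralizer ({y} : Set G)) =
      p * Nat.card ↥(Subgroup.centralizer ({x} : Set G) ⊓ Subgroup.centralizer ({y} : Set G)) := by
  have hK : ∃ g ∈ Subgroup.centralizer ({y} : Set G), g * x ≠ x * g := by
    refine ⟨y, ?_, fun h' => hxy h'.symm⟩
    rw [Subgroup.mem_centralizer_iff]
    rintro _ rfl
    rfl
  have := S5_aux h _ x hK
  rwa [inf_comm] at this

end Cfsg.Agent.Lib.Helper49.AO
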