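import Mathlib
import Cfsg.Agent.Lib.Helper49.AO.Defs
import Cfsg.Agent.Lib.Helper49.AO.S3
import Cfsg.Agent.Lib.Helper49.AO.S5
import Cfsg.Agent.Lib.Helper49.AO.O1
import Cfsg.Agent.Lib.Helper49.AO.O2
import Cfsg.Agent.Lib.Helper49.AO.CA

set_option autoImplicit false

namespace Cfsg.Agent.Lib.Helper49.AO

theorem arith_C {p k ω : ℕ} (hp : 2 ≤ p)
    (h : p ^ 2 * ω ≤ p ^ 2 * k + p * (p * k - k) + (p * (p * k) - p * k)) : ω * p ≤ p * (p * k) := by
  obtain ⟨q, rfl⟩ : ∃ q, p = q + 2 := ⟨p - 2, by omega⟩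
  have e1 : (q + 2) * k - k = (q + 1) * k := by
    have : (q + 2) * k = (q + 1) * k + k := by ring
    omega
  have e2 : (q + 2) * ((q + 2) * k) - (q + 2) * k = (q + 2) * ((q + 1) * k) := by
    have : (q + 2) * ((q + 2) * k) = (q + 2) * ((q + 1) * k) + (q + 2) * k := by ring
    omega
  rw [e1, e2] at h
  have h2 : (q + 2) ^ 2 * ω ≤ (q + 2) ^ 2 * ((q + 2) * k) := by
    refine le_trans h ?_
    nlinarith [Nat.zero_le (q * k), Nat.zero_le (q * q * k), Nat.zero_le k]
  have h3 : ω ≤ (q + 2) * k := Nat.le_of_mul_le_mul_left h2 (by positivity)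
  calc ω * (q + 2) ≤ ((q + 2) * k) * (q + 2) := Nat.mul_le_mul_right _ h3
    _ = (q + 2) * ((q + 2) * k) := by ring

/-- FIN: the count in case C -/
theorem final_C {G : Type*} [Group G] [Finite G] {p : ℕ} {c : G} (h : Cl2 G p c)
    {y : G} (hy : y ∉ Subgroup.center G) (τ : MulAut G)
    (hτ : ∀ (g : G) (n : ℕ), g * y * g⁻¹ * y⁻¹ = c ^ n → ∃ k : ℕ, τ g = g * y ^ n * c ^ k) :
    Nat.card (MulAction.orbitRel.Quotient (MulAut G) G) * p ≤ Nat.card G := by
  obtain ⟨x, hxy⟩ : ∃ x : G, x * y ≠ y * x := by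
    by_contra hc
    push Not at hc
    exact hy (Subgroup.mem_center_iff.2 hc)
  set Cx := Subgroup.centralizer ({x} : Set G) with hCx
  set Cy := Subgroup.centralizer ({y} : Set G) with hCy
  have hn := card_centralizer h hy
  have hk := card_centralizer_inf h hxy
  rw [← hCy] at hn hk
  rw [← hCx] at hk
  have hcount := count_orbits (Γ := MulAut G) (X := G) p ((Cx ⊓ Cy : Subgroup G) : Set G)
    ((Cy : Set G) \ ((Cx ⊓ Cy : Subgroup G) : Set G)) ((Cy : Set G)ᶜ)
    (by
      intro g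
      by_cases h1 : g ∈ (Cy : Set G)
      · by_cases h2 : g ∈ ((Cx ⊓ Cy : Subgroup G) : Set G)
        · exact Or.inl h2
        · exact Or.inr (Or.inl ⟨h1, h2⟩)
      · exact Or.inr (Or.inr h1))
    (by
      rintro g ⟨h1, h2⟩
      apply orbit_ge h
      intro hg
      apply h2
      have hgx : g ∈ Cx := by
        rw [hCx, Subgroup.mem_centralizer_singleton_iff]
        exact (Subgroup.mem_center_iff.1 hg x).symm
      exact Subgroup.mem_inf.2 ⟨hgx, h1⟩)
    (by
      intro g hg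
      apply orbit_ge_sq h τ hτ
      intro hgy
      apply hg
      rw [SetLike.mem_coe, hCy, Subgroup.mem_centralizer_singleton_iff]
      exact hgy)
  have c0 : ((Cx ⊓ Cy : Subgroup G) : Set G).ncard = Nat.card ↥(Cx ⊓ Cy) := by
    rw [← Nat.card_coe_set_eq]; rfl
  have cy : (Cy : Set G).ncard = Nat.card ↥Cy := by
    rw [← Nat.card_coe_set_eq]; rfl
  have c1 : ((Cy : Set G) \ ((Cx ⊓ Cy : Subgroup G) : Set G)).ncard
      = Nat.card ↥Cy - Nat.card ↥(Cx ⊓ Cy) := by
    rw [Set.ncard_sdiff (by intro g hg; exact hg.2) (Set.toFinite _), cy, c0]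
  have c2 : ((Cy : Set G)ᶜ).ncard = Nat.card G - Nat.card ↥Cy := by
    rw [Set.ncard_compl, cy]
  rw [c0, c1, c2, hn, hk] at hcount
  rw [hn, hk]
  exact arith_C h.prime.two_le hcount

/-- FIN: the count in case A -/
theorem final_A {G : Type*} [Group G] [Finite G] {p : ℕ} {c : G} (h : Cl2 G p c)
    (hna : ∃ x y : G, x * y ≠ y * x)
    {w : G} (hw : w ∈ Subgroup.center G) (hwp : w ^ p = 1) (hwc : w ∉ Subgroup.zpowers c) :
    Nat.card (MulAction.orbitRel.Quotient (MulAut G) G) * p ≤ Nat.card G := by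
  obtain ⟨x, y, hxy⟩ := hna
  have hy : y ∉ Subgroup.center G := fun hy => hxy (Subgroup.mem_center_iff.1 hy x)
  have hn := card_centralizer h hy
  have hk := card_centralizer_inf h hxy
  have hcount := count_orbits (Γ := MulAut G) (X := G) p ((Subgroup.center G : Subgroup G) : Set G)
    ∅ ((Subgroup.center G : Set G)ᶜ)
    (by
      intro g
      by_cases h1 : g ∈ (Subgroup.center G : Set G)
      · exact Or.inl h1
      · exact Or.inr (Or.inr h1))
    (by intro g hg; exact absurd hg (Set.notMem_empty g))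
    (by
      intro g hg
      exact orbit_ge_sq_A h hw hwp hwc hg)
  have c0 : ((Subgroup.center G : Subgroup G) : Set G).ncard ≤
      Nat.card ↥(Subgroup.centralizer ({x} : Set G) ⊓ Subgroup.centralizer ({y} : Set G)) := by
    rw [← Nat.card_coe_set_eq]
    exact Subgroup.card_le_of_le (le_inf (Subgroup.center_le_centralizer _) (Subgroup.center_le_centralizer _))
  have c2 : ((Subgroup.center G : Set G)ᶜ).ncard ≤ Nat.card G := by
    rw [← Set.ncard_univ]
    exact Set.ncard_le_ncard (Set.subset_univ _) (Set.toFinite _)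
  rw [Set.ncard_empty, mul_zero, add_zero] at hcount
  set k := Nat.card ↥(Subgroup.centralizer ({x} : Set G) ⊓ Subgroup.centralizer ({y} : Set G)) with hkdef
  set ω := Nat.card (MulAction.orbitRel.Quotient (MulAut G) G) with hω
  have hp2 := h.prime.two_le
  have hN : Nat.card G = p * (p * k) := by rw [hn, hk]
  have h1 : p ^ 2 * ω ≤ p ^ 2 * (p * k) := by
    calc p ^ 2 * ω ≤ p ^ 2 * ((Subgroup.center G : Subgroup G) : Set G).ncard
          + ((Subgroup.center G : Set G)ᶜ).ncard := hcount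
      _ ≤ p ^ 2 * k + p * (p * k) := by
          rw [← hN]; exact Nat.add_le_add (Nat.mul_le_mul_left _ c0) c2
      _ = p ^ 2 * (2 * k) := by ring
      _ ≤ p ^ 2 * (p * k) := Nat.mul_le_mul_left _ (Nat.mul_le_mul_right _ hp2)
  have h3 : ω ≤ p * k := Nat.le_of_mul_le_mul_left h1 (by positivity)
  rw [hN]
  calc ω * p ≤ (p * k) * p := Nat.mul_le_mul_right _ h3
    _ = p * (p * k) := by ring

end Cfsg.Agent.Lib.Helper49.AO
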