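import Mathlib
import Cfsg.Agent.Lib.Helper49.AO.Defs
import Cfsg.Agent.Lib.Helper80.Core
import Cfsg.Agent.Lib.Helper80.Linear
import Cfsg.Agent.Lib.Helper80.CoreDvd
import Cfsg.Agent.Lib.Helper3.Table

set_option autoImplicit false

namespace Cfsg.Agent.Lib.Helper49.AO

open Cfsg Cfsg.Agent.Lib.Helper74 Cfsg.Agent.Lib.Helper80

theorem S1_arith (a b n s : ℕ) (h1 : a + b * (s + 1) ^ 2 ≤ n) (h2 : a * (s + 2) ≤ n) :
    (a + b) * (s + 1) ≤ n := by
  have h3 := Nat.mul_le_mul_left s h2
  have h4 : (a + b) * (s + 1) * (s + 1) ≤ n * (s + 1) := by nlinarith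
  exact Nat.le_of_mul_le_mul_right h4 (by omega)

theorem class_bound {G : Type*} [Group G] [Finite G]
    (h : (Nat.card G).minFac < Nat.card ↥(commutator G)) :
    Nat.card (ConjClasses G) * (Nat.card G).minFac ≤ Nat.card G := by
  classical
  set p := (Nat.card G).minFac with hp
  set n := Nat.card G with hn
  have hn0 : 0 < n := Nat.card_pos
  have hp0 : 0 < p := Nat.minFac_pos _
  obtain ⟨s, hs⟩ : ∃ s, p = s + 1 := ⟨p - 1, by omega⟩
  rw [← Cfsg.Agent.Lib.Helper3.card_irrCharacter]
  set L : Finset (IrrCharacter G) := Finset.univ.filter (fun χ => (χ : G → ℂ) 1 = 1) with hL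
  set M : Finset (IrrCharacter G) := Finset.univ.filter (fun χ => ¬ (χ : G → ℂ) 1 = 1) with hM
  have hk : Nat.card (IrrCharacter G) = L.card + M.card := by
    rw [Nat.card_eq_fintype_card, hL, hM, Finset.card_filter_add_card_filter_not]
    rfl
  have ha : L.card = (commutator G).index := by
    rw [← card_linear, Nat.card_eq_fintype_card]
    exact (Fintype.card_of_subtype _ (fun χ => by simp [hL])).symm
  have hsum := sum_sq_charDegree (G := G)
  have hsplit : ∑ χ : IrrCharacter G, (charDegree (χ : G → ℂ)) ^ 2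
      = ∑ χ ∈ L, (charDegree (χ : G → ℂ)) ^ 2 + ∑ χ ∈ M, (charDegree (χ : G → ℂ)) ^ 2 :=
    (Finset.sum_filter_add_sum_filter_not _ _ _).symm
  have hLs : L.card ≤ ∑ χ ∈ L, (charDegree (χ : G → ℂ)) ^ 2 := by
    have : ∑ χ ∈ L, 1 ≤ ∑ χ ∈ L, (charDegree (χ : G → ℂ)) ^ 2 := by
      apply Finset.sum_le_sum
      intro χ _
      have h0 : charDegree (χ : G → ℂ) ≠ 0 := by
        intro h0
        have := charDegree_dvd_card χ
        rw [h0, zero_dvd_iff] at this
        omega
      exact Nat.one_le_pow _ _ (Nat.pos_of_ne_zero h0)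
    simpa using this
  have hMs : M.card * p ^ 2 ≤ ∑ χ ∈ M, (charDegree (χ : G → ℂ)) ^ 2 := by
    have : ∑ χ ∈ M, p ^ 2 ≤ ∑ χ ∈ M, (charDegree (χ : G → ℂ)) ^ 2 := by
      apply Finset.sum_le_sum
      intro χ hχ
      have hχ' : ¬ (χ : G → ℂ) 1 = 1 := by simpa [hM] using hχ
      have hd := charDegree_dvd_card χ
      have h0 : charDegree (χ : G → ℂ) ≠ 0 := by
        intro h0
        rw [h0, zero_dvd_iff] at hd
        omega
      have h1 : charDegree (χ : G → ℂ) ≠ 1 := by
        intro h1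
        apply hχ'
        rw [char_one_eq_charDegree (isCharacter_of_irr χ.2), h1]
        simp
      exact Nat.pow_le_pow_left (Nat.minFac_le_of_dvd (by omega) hd) 2
    simpa using this
  have hidx : Nat.card ↥(commutator G) * (commutator G).index = n := Subgroup.card_mul_index _
  rw [hk, hs]
  apply S1_arith
  · rw [← hs]
    omega
  · rw [ha, ← hidx, mul_comm]
    exact Nat.mul_le_mul_right _ (by omega)

end Cfsg.Agent.Lib.Helper49.AO
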