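import Mathlib
import Cfsg.Agent.Lib.Helper49.AO.Defs

set_option autoImplicit false

namespace Cfsg.Agent.Lib.Helper49.AO

open scoped commutatorElement

theorem exists_cl2 {G : Type*} [Group G] [Finite G]
    (h : Nat.card ↥(commutator G) = (Nat.card G).minFac) (h1 : Nat.card G ≠ 1) :
    ∃ c : G, Cl2 G (Nat.card G).minFac c := by
  classical
  set p := (Nat.card G).minFac with hp
  have hpp : p.Prime := Nat.minFac_prime h1
  have : Fact p.Prime := ⟨hpp⟩
  -- a nontrivial element of the derived group
  have hnt : Nontrivial ↥(commutator G) := by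
    rw [← Finite.one_lt_card_iff_nontrivial, h]
    exact hpp.one_lt
  obtain ⟨⟨c, hcD⟩, hc1⟩ := exists_ne (1 : ↥(commutator G))
  have hc1' : c ≠ 1 := fun hh => hc1 (Subtype.ext hh)
  have hord : orderOf c = p := by
    have h2 : orderOf c ∣ p := by
      rw [← h, ← Subgroup.orderOf_mk c hcD]
      exact orderOf_dvd_natCard _
    rcases (Nat.dvd_prime hpp).mp h2 with h3 | h3
    · exact absurd (orderOf_eq_one_iff.mp h3) hc1'
    · exact h3
  have hD : Subgroup.zpowers c = commutator G := by
    apply Subgroup.eq_of_le_of_card_ge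
    · rw [Subgroup.zpowers_le]; exact hcD
    · rw [Nat.card_zpowers, hord, h]
  have hnorm : (commutator G).Normal := inferInstance
  -- the conjugacy class of c
  have hcen : ∀ g : G, g * c * g⁻¹ = c := by
    have hsub : MulAction.orbit (ConjAct G) c ⊆ ((commutator G : Set G) \ {1}) := by
      rintro _ ⟨g, rfl⟩
      refine ⟨?_, ?_⟩
      · show g • c ∈ commutator G
        rw [ConjAct.smul_def]
        exact hnorm.conj_mem c hcD _
      · intro hh
        rw [Set.mem_singleton_iff] at hh
        apply hc1'
        have hh' : g • c = 1 := hh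
        have : g • c = g • (1 : G) := by rw [hh', smul_one]
        exact smul_left_cancel g this
    have hle : Nat.card (MulAction.orbit (ConjAct G) c) ≤ p - 1 := by
      have h3 := Nat.card_mono (Set.toFinite _) hsub
      have h4 : Nat.card ↥((commutator G : Set G) \ {1}) = p - 1 := by
        rw [Nat.card_coe_set_eq, Set.ncard_sdiff_singleton_of_mem (Subgroup.one_mem _),
          ← Nat.card_coe_set_eq]
        exact congrArg (· - 1) h
      omega
    have hdvd : Nat.card (MulAction.orbit (ConjAct G) c) ∣ Nat.card G := by
      have h5 := MulAction.index_stabilizer (ConjAct G) c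
      rw [Nat.card_coe_set_eq, ← h5]
      exact Subgroup.index_dvd_card (MulAction.stabilizer (ConjAct G) c)
    have hone : Nat.card (MulAction.orbit (ConjAct G) c) = 1 := by
      by_contra hne
      have hpos : 0 < Nat.card (MulAction.orbit (ConjAct G) c) := by
        have : Nonempty (MulAction.orbit (ConjAct G) c) := ⟨⟨c, MulAction.mem_orbit_self c⟩⟩
        exact Nat.card_pos
      have h6 := Nat.minFac_le_of_dvd (by omega) hdvd
      have := hpp.two_le
      omega
    intro g
    have hss : Subsingleton (MulAction.orbit (ConjAct G) c) :=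
      (Nat.card_eq_one_iff_unique.mp hone).1
    have h7 := congrArg Subtype.val (hss.elim
      ⟨ConjAct.toConjAct g • c, MulAction.mem_orbit c _⟩ ⟨c, MulAction.mem_orbit_self c⟩)
    simpa [ConjAct.smul_def] using h7
  refine ⟨c, hpp, ?_, hord, ?_⟩
  · rw [Subgroup.mem_center_iff]
    intro g
    have := hcen g
    calc g * c = g * c * g⁻¹ * g := by group
      _ = c * g := by rw [this]
  · intro a b
    have h8 : ⁅a, b⁆ ∈ commutator G :=
      Subgroup.commutator_mem_commutator (Subgroup.mem_top a) (Subgroup.mem_top b)
    rw [← hD, ← mem_powers_iff_mem_zpowers, Submonoid.mem_powers_iff] at h8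
    obtain ⟨k, hk⟩ := h8
    exact ⟨k, hk.symm⟩

end Cfsg.Agent.Lib.Helper49.AO
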