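import Mathlib
import Cfsg.Agent.Lib.Helper49.AO.Defs

set_option autoImplicit false

namespace Cfsg.Agent.Lib.Helper49.AO

theorem Todd_pow_congr {G : Type*} [Group G] {x : G} {p n m : ℕ} (hx : x ^ p = 1)
    (h : n ≡ m [MOD p]) : x ^ n = x ^ m := by
  rw [pow_eq_pow_iff_modEq]
  exact h.of_dvd (orderOf_dvd_of_pow_eq_one hx)

theorem Todd_pow_dvd {G : Type*} [Group G] {x : G} {p n : ℕ} (hx : x ^ p = 1) (h : p ∣ n) :
    x ^ n = 1 := by
  obtain ⟨m, rfl⟩ := h
  rw [pow_mul, hx, one_pow]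

/-- symplectic transvection, `p` odd (piece Todd, helper30). -/
theorem exists_tau_odd {G : Type*} [Group G] [Finite G] {p : ℕ} {c : G} (h : Cl2 G p c) (hp : p ≠ 2)
    {y : G} (hy : y ^ p = 1) :
    ∃ τ : MulAut G, ∀ (g : G) (n : ℕ), g * y * g⁻¹ * y⁻¹ = c ^ n →
      ∃ k : ℕ, τ g = g * y ^ n * c ^ k := by
  classical
  have hpp := h.prime
  have hcc : ∀ (k : ℕ) (x : G), c ^ k * x = x * c ^ k := by
    intro k x
    exact ((Subgroup.mem_center_iff.1 (Subgroup.pow_mem _ h.central k)) x).symm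
  have hcp : c ^ p = 1 := by rw [← h.order]; exact pow_orderOf_eq_one c
  choose a ha using fun g => h.comm g y
  have h1 : ∀ g, g * y = c ^ a g * y * g := by
    intro g
    rw [← ha g]; group
  have h2 : ∀ g m, g * y ^ m = c ^ (a g * m) * y ^ m * g := by
    intro g m
    induction m with
    | zero => simp
    | succ m ih =>
      calc g * y ^ (m+1) = (g * y ^ m) * y := by rw [pow_succ, mul_assoc]
        _ = c ^ (a g * m) * y ^ m * (g * y) := by rw [ih]; simp only [mul_assoc]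
        _ = c ^ (a g * m) * y ^ m * (c ^ a g * y * g) := by rw [h1]
        _ = c ^ (a g * m) * (y ^ m * c ^ a g) * y * g := by simp only [mul_assoc]
        _ = c ^ (a g * m) * (c ^ a g * y ^ m) * y * g := by rw [hcc (a g) (y ^ m)]
        _ = c ^ (a g * (m+1)) * y ^ (m+1) * g := by
          rw [mul_add, mul_one, pow_add, pow_succ y]; simp only [mul_assoc]
  have h3 : ∀ g k, a (g * k) ≡ a g + a k [MOD p] := by
    intro g k
    rw [← h.order, ← pow_eq_pow_iff_modEq, ← ha (g * k), pow_add, ← ha g]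
    have e : g * k * y * (g * k)⁻¹ * y⁻¹ = g * (k * y * k⁻¹ * y⁻¹) * y * g⁻¹ * y⁻¹ := by group
    rw [e, ha k, ← hcc (a k) g, ← hcc (a k) (g * y * g⁻¹ * y⁻¹)]
    simp only [mul_assoc]
  obtain ⟨r, hr⟩ : ∃ r, p = 2 * r + 1 := hpp.odd_of_ne_two hp
  let T : G → G := fun g => c ^ (r * a g ^ 2) * (g * y ^ a g)
  have hmul : ∀ g k, T (g * k) = T g * T k := by
    intro g k
    have e1 : y ^ a (g * k) = y ^ (a g + a k) := Todd_pow_congr hy (h3 g k)
    have e2 : c ^ (r * a (g * k) ^ 2) = c ^ (r * (a g + a k) ^ 2) :=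
      Todd_pow_congr hcp (((h3 g k).pow 2).mul_left r)
    show c ^ (r * a (g * k) ^ 2) * (g * k * y ^ a (g * k)) =
      c ^ (r * a g ^ 2) * (g * y ^ a g) * (c ^ (r * a k ^ 2) * (k * y ^ a k))
    rw [e1, e2]
    generalize a g = A
    generalize hB : a k = B
    apply mul_left_cancel (a := c ^ (B * A))
    have W : c ^ (B * A) * ((g * y ^ A) * (k * y ^ B)) = g * k * y ^ (A + B) := by
      calc c ^ (B * A) * ((g * y ^ A) * (k * y ^ B))
          = (c ^ (B * A) * g) * y ^ A * k * y ^ B := by simp only [mul_assoc]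
        _ = (g * c ^ (B * A)) * y ^ A * k * y ^ B := by rw [hcc]
        _ = g * (c ^ (B * A) * y ^ A * k) * y ^ B := by simp only [mul_assoc]
        _ = g * (k * y ^ A) * y ^ B := by rw [← hB, ← h2 k A]
        _ = g * k * y ^ (A + B) := by rw [pow_add]; simp only [mul_assoc]
    have R : c ^ (B * A) * (c ^ (r * A ^ 2) * (g * y ^ A) * (c ^ (r * B ^ 2) * (k * y ^ B))) =
        c ^ (r * A ^ 2 + r * B ^ 2) * (g * k * y ^ (A + B)) := by
      calc c ^ (B * A) * (c ^ (r * A ^ 2) * (g * y ^ A) * (c ^ (r * B ^ 2) * (k * y ^ B)))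
          = c ^ (B * A) * (c ^ (r * A ^ 2) * (((g * y ^ A) * c ^ (r * B ^ 2)) * (k * y ^ B))) := by
            simp only [mul_assoc]
        _ = c ^ (B * A) * (c ^ (r * A ^ 2) * ((c ^ (r * B ^ 2) * (g * y ^ A)) * (k * y ^ B))) := by
            rw [hcc (r * B ^ 2) (g * y ^ A)]
        _ = (c ^ (B * A) * (c ^ (r * A ^ 2) * c ^ (r * B ^ 2))) * ((g * y ^ A) * (k * y ^ B)) := by
            simp only [mul_assoc]
        _ = ((c ^ (r * A ^ 2) * c ^ (r * B ^ 2)) * c ^ (B * A)) * ((g * y ^ A) * (k * y ^ B)) := by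
            rw [hcc (B * A)]
        _ = c ^ (r * A ^ 2 + r * B ^ 2) * (c ^ (B * A) * ((g * y ^ A) * (k * y ^ B))) := by
            rw [pow_add]; simp only [mul_assoc]
        _ = _ := by rw [W]
    rw [R, ← mul_assoc, ← pow_add]
    congr 1
    have e3 : B * A + r * (A + B) ^ 2 = r * A ^ 2 + r * B ^ 2 + p * (A * B) := by rw [hr]; ring
    rw [e3, pow_add, pow_mul, hcp, one_pow, mul_one]
  have hone : T 1 = 1 := by
    have := hmul 1 1
    rw [mul_one] at this
    exact (mul_eq_left.1 this.symm)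
  let f : G →* G := { toFun := T, map_one' := hone, map_mul' := hmul }
  have hinj : Function.Injective f := by
    rw [injective_iff_map_eq_one]
    intro g hg
    have hg' : c ^ (r * a g ^ 2) * (g * y ^ a g) = 1 := hg
    have e1 : g = (c ^ (r * a g ^ 2))⁻¹ * (y ^ a g)⁻¹ := by
      have : g * y ^ a g = (c ^ (r * a g ^ 2))⁻¹ := eq_inv_of_mul_eq_one_right hg'
      rw [← this]; group
    have hcomm : Commute g y := by
      rw [e1]
      apply Commute.mul_left
      · exact (show Commute (c ^ (r * a g ^ 2)) y from hcc _ y).inv_left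
      · exact ((Commute.refl y).pow_left _).inv_left
    have e2 : c ^ a g = 1 := by
      rw [← ha g, hcomm.eq]; group
    have e3 : p ∣ a g := by
      rw [← h.order]; exact orderOf_dvd_of_pow_eq_one e2
    rw [Todd_pow_dvd hy e3, Todd_pow_dvd hcp (Dvd.dvd.mul_left (Dvd.dvd.pow e3 (by norm_num)) r)] at hg'
    simpa using hg'
  have hbij : Function.Bijective f := Finite.injective_iff_bijective.1 hinj
  refine ⟨MulEquiv.ofBijective f hbij, ?_⟩
  intro g n hn
  refine ⟨r * a g ^ 2, ?_⟩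
  show c ^ (r * a g ^ 2) * (g * y ^ a g) = g * y ^ n * c ^ (r * a g ^ 2)
  have e1 : n ≡ a g [MOD p] := by
    rw [← h.order, ← pow_eq_pow_iff_modEq, ← hn, ha g]
  rw [Todd_pow_congr hy e1, hcc]

end Cfsg.Agent.Lib.Helper49.AO
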