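import Mathlib
import Cfsg.Agent.Lib.Helper49.AO.Defs

set_option autoImplicit false

namespace Cfsg.Agent.Lib.Helper49.AO

theorem Ttwo_cc {G : Type*} [Group G] {c : G} (h : Cl2 G 2 c) : c * c = 1 := by
  rw [← pow_two, ← h.order, pow_orderOf_eq_one]

theorem Ttwo_c_ne {G : Type*} [Group G] {c : G} (h : Cl2 G 2 c) : c ≠ 1 := by
  intro hc
  have := h.order
  rw [hc, orderOf_one] at this
  omega

theorem Ttwo_pow {G : Type*} [Group G] {c : G} (h : Cl2 G 2 c) (k : ℕ) : c ^ k = 1 ∨ c ^ k = c := by
  obtain ⟨m, rfl | rfl⟩ := Nat.even_or_odd' k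
  · left; rw [pow_mul, pow_two, Ttwo_cc h, one_pow]
  · right; rw [pow_succ, pow_mul, pow_two, Ttwo_cc h, one_pow, one_mul]

theorem Ttwo_alt {G : Type*} [Group G] {c : G} (h : Cl2 G 2 c) (g y : G) :
    g * y = y * g ∨ g * y = c * y * g := by
  obtain ⟨k, hk⟩ := h.comm g y
  rcases Ttwo_pow h k with h1 | h1
  · left
    rw [h1] at hk
    have : g * y = (g * y * g⁻¹ * y⁻¹) * y * g := by group
    rw [this, hk, one_mul]
  · right
    rw [h1] at hk
    have : g * y = (g * y * g⁻¹ * y⁻¹) * y * g := by group
    rw [this, hk]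

theorem exists_tau_two {G : Type*} [Group G] [Finite G] {c : G} (h : Cl2 G 2 c)
    {y : G} (hy : y ^ 2 = c) :
    ∃ τ : MulAut G, ∀ (g : G) (n : ℕ), g * y * g⁻¹ * y⁻¹ = c ^ n →
      ∃ k : ℕ, τ g = g * y ^ n * c ^ k := by
  classical
  have hc2 := Ttwo_cc h
  have hc1 := Ttwo_c_ne h
  have hcc : ∀ g, g * c = c * g := Subgroup.mem_center_iff.1 h.central
  have hyy : y * y = c := by rw [← pow_two, hy]
  -- not commuting
  have hnc : ∀ g, g * y = c * y * g → g * y ≠ y * g := by
    intro g hg hc
    rw [hg, mul_assoc] at hc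
    exact hc1 (mul_eq_right.1 hc)
  have hmul : ∀ a b : G, (if (a * b) * y = y * (a * b) then a * b else a * b * y) =
      (if a * y = y * a then a else a * y) * (if b * y = y * b then b else b * y) := by
    intro a b
    rcases Ttwo_alt h a y with ha | ha <;> rcases Ttwo_alt h b y with hb | hb
    · have hab : (a * b) * y = y * (a * b) := by
        rw [mul_assoc, hb, ← mul_assoc, ha, mul_assoc]
      rw [if_pos hab, if_pos ha, if_pos hb]
    · have hab : (a * b) * y = c * y * (a * b) := by
        rw [mul_assoc, hb, mul_assoc c, ← mul_assoc a, hcc a, mul_assoc c, ← mul_assoc a, ha]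
        simp only [mul_assoc]
      rw [if_neg (hnc _ hab), if_pos ha, if_neg (hnc _ hb), mul_assoc]
    · have hab : (a * b) * y = c * y * (a * b) := by
        rw [mul_assoc, hb, ← mul_assoc, ha, mul_assoc]
      rw [if_neg (hnc _ hab), if_neg (hnc _ ha), if_pos hb, mul_assoc, hb, mul_assoc]
    · have hab : (a * b) * y = y * (a * b) := by
        calc (a * b) * y = a * (b * y) := mul_assoc _ _ _
          _ = a * (c * y * b) := by rw [hb]
          _ = (a * c) * y * b := by simp only [mul_assoc]
          _ = c * (a * y) * b := by rw [hcc a]; simp only [mul_assoc]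
          _ = c * (c * y * a) * b := by rw [ha]
          _ = (c * c) * (y * (a * b)) := by simp only [mul_assoc]
          _ = y * (a * b) := by rw [hc2, one_mul]
      have hyb : y * b = c * (b * y) := by
        rw [hb, ← mul_assoc, ← mul_assoc, hc2, one_mul]
      rw [if_pos hab, if_neg (hnc _ ha), if_neg (hnc _ hb)]
      symm
      calc a * y * (b * y) = a * (y * b) * y := by simp only [mul_assoc]
        _ = a * (c * (b * y)) * y := by rw [hyb]
        _ = (a * c) * b * (y * y) := by simp only [mul_assoc]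
        _ = c * ((a * b) * c) := by rw [hcc a, hyy]; simp only [mul_assoc]
        _ = c * (c * (a * b)) := by rw [hcc (a * b)]
        _ = a * b := by rw [← mul_assoc, hc2, one_mul]
  let f : G →* G :=
    { toFun := fun g => if g * y = y * g then g else g * y
      map_one' := by simp
      map_mul' := hmul }
  have hf : ∀ g, f g = if g * y = y * g then g else g * y := fun g => rfl
  have hinj : Function.Injective f := by
    rw [injective_iff_map_eq_one]
    intro g hg
    rw [hf] at hg
    by_cases hgy : g * y = y * g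
    · rwa [if_pos hgy] at hg
    · rw [if_neg hgy] at hg
      exfalso
      apply hgy
      have : g = y⁻¹ := eq_inv_of_mul_eq_one_left hg
      rw [this, inv_mul_cancel, mul_inv_cancel]
  have hbij : Function.Bijective f := Finite.injective_iff_bijective.1 hinj
  refine ⟨MulEquiv.ofBijective f hbij, fun g n hn => ?_⟩
  have hτ : (MulEquiv.ofBijective f hbij) g = f g := rfl
  rw [hτ, hf]
  have hgy : g * y = (g * y * g⁻¹ * y⁻¹) * y * g := by group
  obtain ⟨m, rfl | rfl⟩ := Nat.even_or_odd' n
  · have h1 : c ^ (2 * m) = 1 := by rw [pow_mul, pow_two, hc2, one_pow]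
    rw [h1] at hn
    rw [hn, one_mul] at hgy
    refine ⟨m, ?_⟩
    rw [if_pos hgy, pow_mul, hy, mul_assoc, ← pow_add, ← two_mul, h1, mul_one]
  · have h1 : c ^ (2 * m + 1) = c := by rw [pow_succ, pow_mul, pow_two, hc2, one_pow, one_mul]
    rw [h1] at hn
    rw [hn] at hgy
    refine ⟨m, ?_⟩
    have hd : ∀ g, g * c ^ m = c ^ m * g :=
      Subgroup.mem_center_iff.1 (Subgroup.pow_mem _ h.central m)
    have hdd : c ^ m * c ^ m = 1 := by rw [← pow_add, ← two_mul, pow_mul, pow_two, hc2, one_pow]
    rw [if_neg (hnc _ hgy), pow_succ, pow_mul, hy, mul_assoc, mul_assoc, hd y, ← mul_assoc (c ^ m),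
      hdd, one_mul]

end Cfsg.Agent.Lib.Helper49.AO
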