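import Mathlib
import Cfsg.Agent.Lib.Helper49.AO.Defs
import Cfsg.Agent.Lib.Helper49.AO.S5

set_option autoImplicit false

namespace Cfsg.Agent.Lib.Helper49.AO

theorem Yodd_pow_mul {G : Type*} [Group G] (a b d : G) (hd : ∀ g, g * d = d * g)
    (hba : b * a = d * a * b) (n : ℕ) : b ^ n * a = d ^ n * a * b ^ n := by
  induction n with
  | zero => simp
  | succ n ih =>
    have hdn : ∀ g, g * d ^ n = d ^ n * g := fun g => (show Commute g d from hd g).pow_right n
    calc b ^ (n + 1) * a = b * (b ^ n * a) := by rw [pow_succ', mul_assoc]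
      _ = b * (d ^ n * a * b ^ n) := by rw [ih]
      _ = (b * d ^ n) * a * b ^ n := by simp only [mul_assoc]
      _ = d ^ n * (b * a) * b ^ n := by rw [hdn b]; simp only [mul_assoc]
      _ = d ^ n * (d * a * b) * b ^ n := by rw [hba]
      _ = d ^ (n + 1) * a * b ^ (n + 1) := by rw [pow_succ d, pow_succ' b]; simp only [mul_assoc]

theorem Yodd_mul_pow {G : Type*} [Group G] (a b d : G) (hd : ∀ g, g * d = d * g)
    (hba : b * a = d * a * b) (n : ℕ) : (a * b) ^ n = d ^ (n.choose 2) * a ^ n * b ^ n := by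
  induction n with
  | zero => simp
  | succ n ih =>
    have hdn : ∀ g, g * d ^ n = d ^ n * g := fun g => (show Commute g d from hd g).pow_right n
    have hch : n.choose 2 + n = (n + 1).choose 2 := by
      rw [Nat.choose_succ_succ' n 1, Nat.choose_one_right, add_comm]
    calc (a * b) ^ (n + 1) = (a * b) ^ n * (a * b) := pow_succ _ _
      _ = d ^ (n.choose 2) * a ^ n * b ^ n * (a * b) := by rw [ih]
      _ = d ^ (n.choose 2) * a ^ n * (b ^ n * a) * b := by simp only [mul_assoc]
      _ = d ^ (n.choose 2) * a ^ n * (d ^ n * a * b ^ n) * b := by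
          rw [Yodd_pow_mul a b d hd hba n]
      _ = d ^ (n.choose 2) * (a ^ n * d ^ n) * (a * (b ^ n * b)) := by simp only [mul_assoc]
      _ = d ^ (n.choose 2) * (d ^ n * a ^ n) * (a * (b ^ n * b)) := by rw [hdn (a ^ n)]
      _ = (d ^ (n.choose 2) * d ^ n) * (a ^ n * a) * (b ^ n * b) := by simp only [mul_assoc]
      _ = d ^ ((n + 1).choose 2) * a ^ (n + 1) * b ^ (n + 1) := by
          rw [← pow_add, ← pow_succ, ← pow_succ, hch]

theorem exists_y_odd {G : Type*} [Group G] [Finite G] {p : ℕ} {c : G} (h : Cl2 G p c) (hp : p ≠ 2)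
    (hna : ∃ x y : G, x * y ≠ y * x)
    (hC : ∀ w ∈ Subgroup.center G, w ^ p = 1 → w ∈ Subgroup.zpowers c) :
    ∃ y : G, y ∉ Subgroup.center G ∧ y ^ p = 1 := by
  have hpp := h.prime
  have hp2 := hpp.two_le
  have hcp : c ^ p = 1 := by rw [← h.order, pow_orderOf_eq_one]
  -- the commutator data
  have hdat : ∀ a b : G, ∃ d : G, (∀ g, g * d = d * g) ∧ b * a = d * a * b ∧ d ^ p = 1 := by
    intro a b
    obtain ⟨k, hk⟩ := h.comm b a
    refine ⟨c ^ k, Subgroup.mem_center_iff.1 (Subgroup.pow_mem _ h.central k), ?_, ?_⟩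
    · rw [← hk]; group
    · rw [← pow_mul, mul_comm, pow_mul, hcp, one_pow]
  have hpow : ∀ a b : G, (a * b) ^ p = a ^ p * b ^ p := by
    intro a b
    obtain ⟨d, hd, hba, hdp⟩ := hdat a b
    obtain ⟨m, hm⟩ := hpp.dvd_choose_self (k := 2) (by norm_num) (by omega)
    rw [Yodd_mul_pow a b d hd hba p, hm, pow_mul, hdp, one_pow, one_mul]
  have hcen : ∀ b : G, b ^ p ∈ Subgroup.center G := by
    intro b
    rw [Subgroup.mem_center_iff]
    intro a
    obtain ⟨d, hd, hba, hdp⟩ := hdat a b
    rw [Yodd_pow_mul a b d hd hba p, hdp, one_mul]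
  by_contra hcon
  push Not at hcon
  have hcon' : ∀ y : G, y ^ p = 1 → y ∈ Subgroup.center G := by
    intro y hy
    by_contra hyc
    exact hcon y hyc hy
  let π : G →* G :=
    { toFun := fun g => g ^ p
      map_one' := one_pow p
      map_mul' := hpow }
  have hker : π.ker ≤ Subgroup.zpowers c := by
    intro y hy
    have hy' : y ^ p = 1 := hy
    exact hC y (hcon' y hy') hy'
  have hran : π.range ≤ Subgroup.center G := by
    rintro _ ⟨b, rfl⟩
    exact hcen b
  have c1 : Nat.card π.ker ≤ p := by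
    have := Subgroup.card_le_of_le hker
    rwa [Nat.card_zpowers, h.order] at this
  obtain ⟨x, y, hxy⟩ := hna
  have hyZ : y ∉ Subgroup.center G := fun hc => hxy (Subgroup.mem_center_iff.1 hc x)
  have e1 := card_centralizer h hyZ
  have e2 := card_centralizer_inf h hxy
  have c2 : Nat.card π.range ≤
      Nat.card ↥(Subgroup.centralizer ({x} : Set G) ⊓ Subgroup.centralizer ({y} : Set G)) :=
    Subgroup.card_le_of_le (hran.trans
      (le_inf (Subgroup.center_le_centralizer _) (Subgroup.center_le_centralizer _)))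
  have e3 := Subgroup.card_mul_index π.ker
  rw [Subgroup.index_ker] at e3
  have hm0 : 0 < Nat.card
      ↥(Subgroup.centralizer ({x} : Set G) ⊓ Subgroup.centralizer ({y} : Set G)) := Nat.card_pos
  rw [e2] at e1
  generalize Nat.card
    ↥(Subgroup.centralizer ({x} : Set G) ⊓ Subgroup.centralizer ({y} : Set G)) = m at *
  have h4 : p * (p * m) ≤ p * m := by
    rw [← e1, ← e3]
    exact Nat.mul_le_mul c1 c2
  have h5 : p * (p * m) ≤ 1 * (p * m) := by rwa [one_mul]
  have h6 := Nat.le_of_mul_le_mul_right h5 (Nat.mul_pos (by omega) hm0)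
  omega

end Cfsg.Agent.Lib.Helper49.AO
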