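import Mathlib
import Cfsg.Agent.Lib.Helper49.AO.Defs
import Cfsg.Agent.Lib.Helper49.AO.Ttwo

set_option autoImplicit false

namespace Cfsg.Agent.Lib.Helper49.AO

/-- squares are central -/
theorem Ytwo_sq_central {G : Type*} [Group G] {c : G} (h : Cl2 G 2 c) (x : G) :
    x * x ∈ Subgroup.center G := by
  have hc2 := Ttwo_cc h
  have hcc : ∀ g, g * c = c * g := Subgroup.mem_center_iff.1 h.central
  rw [Subgroup.mem_center_iff]
  intro g
  rcases Ttwo_alt h g x with hg | hg
  · rw [← mul_assoc, hg, mul_assoc, hg, mul_assoc]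
  · calc g * (x * x) = (g * x) * x := (mul_assoc _ _ _).symm
      _ = c * x * g * x := by rw [hg]
      _ = c * x * (g * x) := by simp only [mul_assoc]
      _ = c * x * (c * x * g) := by rw [hg]
      _ = c * (x * c) * (x * g) := by simp only [mul_assoc]
      _ = c * (c * x) * (x * g) := by rw [hcc x]
      _ = (c * c) * (x * x * g) := by simp only [mul_assoc]
      _ = x * x * g := by rw [hc2, one_mul]

/-- the final step -/
theorem Ytwo_fin {G : Type*} [Group G] {c : G} (h : Cl2 G 2 c) {u s : G}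
    (hu : u ∉ Subgroup.center G) (hs : s ∈ Subgroup.center G) (hus : u * u * c = s * s) :
    ∃ y : G, y ∉ Subgroup.center G ∧ y ^ 2 = c := by
  have hc2 := Ttwo_cc h
  have hsi : ∀ g, g * s⁻¹ = s⁻¹ * g := Subgroup.mem_center_iff.1 (Subgroup.inv_mem _ hs)
  refine ⟨u * s⁻¹, fun hc => hu ?_, ?_⟩
  · have := Subgroup.mul_mem _ hc hs
    rwa [inv_mul_cancel_right] at this
  · have h1 : u * u = s * s * c := by
      rw [← hus, mul_assoc, hc2, mul_one]
    calc (u * s⁻¹) ^ 2 = u * (s⁻¹ * u) * s⁻¹ := by rw [pow_two]; simp only [mul_assoc]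
      _ = u * (u * s⁻¹) * s⁻¹ := by rw [hsi u]
      _ = (u * u) * s⁻¹ * s⁻¹ := by simp only [mul_assoc]
      _ = s * s * (c * s⁻¹) * s⁻¹ := by rw [h1]; simp only [mul_assoc]
      _ = s * s * (s⁻¹ * c) * s⁻¹ := by rw [hsi c]
      _ = s * (c * s⁻¹) := by group
      _ = s * (s⁻¹ * c) := by rw [hsi c]
      _ = c := by group

theorem exists_y_two {G : Type*} [Group G] [Finite G] {c : G} (h : Cl2 G 2 c)
    (hna : ∃ x y : G, x * y ≠ y * x)
    (hC : ∀ w ∈ Subgroup.center G, w ^ 2 = 1 → w ∈ Subgroup.zpowers c) :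
    ∃ y : G, y ∉ Subgroup.center G ∧ y ^ 2 = c := by
  have hc2 := Ttwo_cc h
  have hcc : ∀ g, g * c = c * g := Subgroup.mem_center_iff.1 h.central
  obtain ⟨x, y₀, hxy⟩ := hna
  have hxy' : x * y₀ = c * y₀ * x := (Ttwo_alt h x y₀).resolve_left hxy
  let sq : Subgroup.center G →* Subgroup.center G :=
    { toFun := fun z => z ^ 2
      map_one' := one_pow 2
      map_mul' := fun a b =>
        Commute.mul_pow (Subtype.ext (Subgroup.mem_center_iff.1 b.2 a.1) : a * b = b * a) 2 }
  let c' : Subgroup.center G := ⟨c, h.central⟩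
  have hker : sq.ker = Subgroup.zpowers c' := by
    apply le_antisymm
    · intro z hz
      have hz2 : z ^ 2 = 1 := hz
      have h1 : (z : G) ^ 2 = 1 := by
        have := congrArg Subtype.val hz2
        simpa using this
      obtain ⟨j, hj⟩ := Subgroup.mem_zpowers_iff.1 (hC z.1 z.2 h1)
      exact Subgroup.mem_zpowers_iff.2 ⟨j, Subtype.ext (by simpa using hj)⟩
    · rw [Subgroup.zpowers_le]
      change c' ^ 2 = 1
      apply Subtype.ext
      change c ^ 2 = 1
      rw [pow_two, hc2]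
  have hcardker : Nat.card sq.ker = 2 := by
    rw [hker, Nat.card_zpowers]
    have : orderOf c' = orderOf c := Subgroup.orderOf_mk c h.central
    rw [this, h.order]
  have hidx : sq.range.index = 2 := by
    have h1 := Subgroup.card_mul_index sq.ker
    have h2 := Subgroup.card_mul_index sq.range
    rw [Subgroup.index_ker, hcardker] at h1
    rw [← h1, mul_comm] at h2
    exact Nat.eq_of_mul_eq_mul_right Nat.card_pos h2
  -- elements of the range are squares of central elements
  have hfin : ∀ u : G, u ∉ Subgroup.center G → ∀ hu2 : u * u * c ∈ Subgroup.center G,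
      (⟨u * u * c, hu2⟩ : Subgroup.center G) ∈ sq.range →
      ∃ y : G, y ∉ Subgroup.center G ∧ y ^ 2 = c := by
    rintro u hu hu2 ⟨s, hs⟩
    have hs' : (s : G) ^ 2 = u * u * c := by
      have := congrArg Subtype.val hs
      simpa [sq] using this
    exact Ytwo_fin h hu s.2 (by rw [← hs', pow_two])
  have hxZ : x ∉ Subgroup.center G := fun hc => hxy ((Subgroup.mem_center_iff.1 hc y₀).symm)
  have hyZ : y₀ ∉ Subgroup.center G := fun hc => hxy (Subgroup.mem_center_iff.1 hc x)
  have hxyZ : x * y₀ ∉ Subgroup.center G := by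
    intro hc
    have h1 := Subgroup.mem_center_iff.1 hc x
    apply hxy
    rw [← mul_assoc] at h1
    have h2 : x * (x * y₀) = x * (y₀ * x) := by rw [← mul_assoc, h1, mul_assoc]
    exact mul_left_cancel h2
  have hm : ∀ u : G, u * u * c ∈ Subgroup.center G := fun u =>
    Subgroup.mul_mem _ (Ytwo_sq_central h u) h.central
  by_cases h1 : (⟨x * x * c, hm x⟩ : Subgroup.center G) ∈ sq.range
  · exact hfin x hxZ _ h1
  by_cases h2 : (⟨y₀ * y₀ * c, hm y₀⟩ : Subgroup.center G) ∈ sq.range
  · exact hfin y₀ hyZ _ h2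
  have h3 : (⟨x * x * c, hm x⟩ : Subgroup.center G) * ⟨y₀ * y₀ * c, hm y₀⟩ ∈ sq.range :=
    (Subgroup.mul_mem_iff_of_index_two hidx).2 (iff_of_false h1 h2)
  refine hfin (x * y₀) hxyZ (hm _) ?_
  have e : (⟨x * y₀ * (x * y₀) * c, hm (x * y₀)⟩ : Subgroup.center G) =
      (⟨x * x * c, hm x⟩ : Subgroup.center G) * ⟨y₀ * y₀ * c, hm y₀⟩ := by
    apply Subtype.ext
    change x * y₀ * (x * y₀) * c = x * x * c * (y₀ * y₀ * c)
    have hyx : y₀ * x = c * (x * y₀) := by
      rw [hxy', ← mul_assoc, ← mul_assoc, hc2, one_mul]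
    calc x * y₀ * (x * y₀) * c = x * (y₀ * x) * y₀ * c := by simp only [mul_assoc]
      _ = x * (c * (x * y₀)) * y₀ * c := by rw [hyx]
      _ = x * (c * x) * (y₀ * y₀ * c) := by simp only [mul_assoc]
      _ = x * (x * c) * (y₀ * y₀ * c) := by rw [hcc x]
      _ = x * x * c * (y₀ * y₀ * c) := by simp only [mul_assoc]
  rw [e]
  exact h3

end Cfsg.Agent.Lib.Helper49.AO
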